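import Cfsg.Agent.H20.Pw0
import Mathlib.GroupTheory.SpecificGroups.Alternating.Simple

/-! Piece 3 of the product action maximality proof: fibre-preserving elements act on one coordinate. -/

set_option autoImplicit false
set_option linter.unusedSectionVars false

namespace L.Pw

open Equiv Function H20.Pw

variable {ι U : Type} [Fintype ι] [DecidableEq ι] [Fintype U] [DecidableEq U]

theorem cent_alt (h5 : 5 ≤ Fintype.card U) {s : Perm U} (h : ∀ a ∈ alternatingGroup U, s * a = a * s) : s = 1 := by
  refine Equiv.ext fun u => ?_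
  by_contra hu
  replace hu : s u ≠ u := hu
  have h1 : 1 < (Finset.univ \ {u, s u} : Finset U).card := by
    have := Finset.le_card_sdiff ({u, s u} : Finset U) Finset.univ
    have := Finset.card_le_two (a := u) (b := s u)
    rw [Finset.card_univ] at *
    omega
  obtain ⟨v, hv, w, hw, hvw⟩ := Finset.one_lt_card.1 h1
  simp only [Finset.mem_sdiff, Finset.mem_univ, Finset.mem_insert, Finset.mem_singleton, true_and, not_or] at hv hw
  have := DFunLike.congr_fun (h (swap (s u) v * swap (s u) w) (by
    rw [Perm.mem_alternatingGroup, map_mul, Perm.sign_swap (Ne.symm hv.2), Perm.sign_swap (Ne.symm hw.2)]; simp)) u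
  rw [Perm.mul_apply, Perm.mul_apply, Perm.mul_apply, Perm.mul_apply, swap_apply_left,
    swap_apply_of_ne_of_ne hu.symm (Ne.symm hw.1), swap_apply_of_ne_of_ne hu.symm (Ne.symm hv.1),
    swap_apply_of_ne_of_ne hw.2 hvw.symm] at this
  exact hw.2 this.symm

theorem exists_nc (h5 : 5 ≤ Fintype.card U) {s t : Perm U} (hs : s ≠ 1) (ht : t ≠ 1) :
    ∃ a ∈ alternatingGroup U, s * (a * t * a⁻¹) ≠ a * t * a⁻¹ * s := by
  by_contra hn
  push Not at hn
  haveI := alternatingGroup.isSimpleGroup (α := U) (by rwa [Nat.card_eq_fintype_card])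
  let D : Subgroup (alternatingGroup U) :=
    { carrier := {x | ∀ a ∈ alternatingGroup U, Commute s (a * x.1 * a⁻¹)}
      one_mem' := fun a _ => by simp
      mul_mem' := fun {x y} hx hy a ha => by
        have := (hx a ha).mul_right (hy a ha)
        rwa [show a * x.1 * a⁻¹ * (a * y.1 * a⁻¹) = a * (x * y).1 * a⁻¹ by simp [mul_assoc]] at this
      inv_mem' := fun {x} hx a ha => by
        have := (hx a ha).inv_right
        rwa [show (a * x.1 * a⁻¹)⁻¹ = a * (x⁻¹).1 * a⁻¹ by simp [mul_assoc]] at this }
  have hD : D.Normal := ⟨fun x hx b a ha => by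
    have := hx (a * b.1) (mul_mem ha b.2)
    rwa [show a * b.1 * x.1 * (a * b.1)⁻¹ = a * (b * x * b⁻¹).1 * a⁻¹ by simp [mul_assoc]] at this⟩
  rcases hD.eq_bot_or_eq_top with e | e
  · refine ht (cent_alt h5 fun a ha => ?_)
    have h1 : a * t * a⁻¹ * t⁻¹ ∈ alternatingGroup U := by
      have := (alternatingGroup.normal (α := U)).conj_mem _ (inv_mem ha) t
      simpa [mul_assoc] using mul_mem ha this
    have h2 : (⟨_, h1⟩ : alternatingGroup U) ∈ D := fun b hb => by
      have := (show Commute s _ from hn (b * a) (mul_mem hb ha)).mul_right (show Commute s _ from hn b hb).inv_right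
      rwa [show b * a * t * (b * a)⁻¹ * (b * t * b⁻¹)⁻¹ = b * (a * t * a⁻¹ * t⁻¹) * b⁻¹ by group] at this
    rw [e, Subgroup.mem_bot] at h2
    have h3 : a * t * a⁻¹ * t⁻¹ = 1 := congrArg Subtype.val h2
    calc t * a = (a * t * a⁻¹ * t⁻¹) * t * a := by rw [h3, one_mul]
      _ = a * t := by group
  · refine hs (cent_alt h5 fun a ha => ?_)
    have h2 : (⟨a, ha⟩ : alternatingGroup U) ∈ D := e ▸ Subgroup.mem_top _
    simpa using (h2 1 (one_mem _)).eq

/-- the permutations preserving the fibres of the coordinate `i` -/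
def FP (i : ι) : Subgroup (Perm (ι → U)) where
  carrier := {h | ∀ f j, j ≠ i → h f j = f j}
  one_mem' := fun _ _ _ => rfl
  mul_mem' := fun {g h} hg hh f j hj => (hg _ j hj).trans (hh f j hj)
  inv_mem' := fun {g} hg f j hj => by simpa using (hg (g⁻¹ f) j hj).symm

theorem app {i : ι} (h : FP (U := U) i) (f : ι → U) (u : U) :
    h.1 (update f i u) = update f i (h.1 (update f i u) i) := funext fun j => by
  by_cases e : j = i
  · subst e; simp
  · rw [h.2 _ j e, update_of_ne e, update_of_ne e]

/-- the action on the fibre through `f` -/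
def res {i : ι} (f : ι → U) : FP (U := U) i →* Perm U where
  toFun h :=
    { toFun := fun u => h.1 (update f i u) i
      invFun := fun u => (h⁻¹).1 (update f i u) i
      left_inv := fun u => by simp only; rw [← app]; simp
      right_inv := fun u => by simp only; rw [← app]; simp }
  map_one' := Equiv.ext fun u => by simp
  map_mul' g h := Equiv.ext fun u => by
    show g.1 (h.1 (update f i u)) i = g.1 (update f i (h.1 (update f i u) i)) i
    rw [← app]

theorem res_apply {i : ι} (f : ι → U) (h : FP (U := U) i) (u : U) : res f h u = h.1 (update f i u) i := rfl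

theorem eq_res {i : ι} (f : ι → U) (h : FP (U := U) i) : h.1 f = update f i (res f h (f i)) := by
  rw [res_apply, ← app, update_eq_self]

/-- `co i σ` as a fibre-preserving permutation -/
def cf (i : ι) (σ : Perm U) : FP (U := U) i := ⟨co i σ, fun f _ hj => co_ne hj σ f⟩

theorem res_cf {i : ι} (f : ι → U) (σ : Perm U) : res f (cf i σ) = σ := Equiv.ext fun u => by
  simp [res_apply, cf]

theorem p3 (hR : PRel) (h4 : P4) : P3 := by
  intro ι U _ _ _ _ H hH i h hh hf
  classical
  let r : (ι → U) → (ι → U) → Prop := fun f g => ∀ k : FP (U := U) i, k.1 ∈ H → res f k = res g k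
  by_cases hA : ∃ f g j, r f g ∧ j ≠ i ∧ f j ≠ g j
  · obtain ⟨f, g, j, h1, h2, h3⟩ := hA
    have := hR ι U H hH i j r ⟨fun _ _ _ => rfl, fun e k hk => (e k hk).symm,
      fun e e' k hk => (e k hk).trans (e' k hk)⟩ (fun x hx f g e k hk => by
        have up : ∀ f u, x (update f i u) = update (x f) i u := fun f u => by
          have := DFunLike.congr_fun (hx.2.2 (swap (f i) u)) f
          rwa [Perm.mul_apply, Perm.mul_apply, co_apply, co_apply, hx.2.1, swap_apply_left] at this
        have up' : ∀ f u, x⁻¹ (update (x f) i u) = update f i u := fun f u => by rw [← up]; simp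
        let k' : FP (U := U) i := ⟨x⁻¹ * k.1 * x, fun f j hj => by
          rw [Perm.mul_apply, Perm.mul_apply, eq_res, up', update_of_ne hj]⟩
        have hk' : ∀ f, res f k' = res (x f) k := fun f => Equiv.ext fun u => by
          rw [res_apply, res_apply]
          show x⁻¹ (k.1 (x (update f i u))) i = _
          rw [up]
          conv_lhs => rw [app, up', update_self]
        rw [← hk', ← hk', e k' (mul_mem (mul_mem (inv_mem hx.1) hk) hx.1)]) f g h1 h2 h3
    refine ⟨res g ⟨h, hf⟩, Equiv.ext fun f' => ?_⟩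
    have e := this (update f' i (g i)) g (update_self _ _ _) rfl ⟨h, hf⟩ hh
    rw [co_apply, ← e, res_apply, update_idem, ← app, update_eq_self]
  push Not at hA
  have C1 : ∀ w w' : ι → U, (∃ j, j ≠ i ∧ w j ≠ w' j) → ∃ g : FP (U := U) i, g.1 ∈ H ∧ res w' g = 1 ∧ res w g ≠ 1 := by
    rintro w w' ⟨j, hj, hw⟩
    have : ¬ r w w' := fun e => hw (hA w w' j e hj)
    simp only [r] at this
    push Not at this
    obtain ⟨k, hk, hne⟩ := this
    have : ¬ ∀ a ∈ alternatingGroup U, (res w' k)⁻¹ * res w k * a = a * ((res w' k)⁻¹ * res w k) := fun e =>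
      hne (inv_mul_eq_one.1 (cent_alt hH.five e)).symm
    push Not at this
    obtain ⟨a, ha, hna⟩ := this
    refine ⟨k * cf i a * k⁻¹ * (cf i (res w' k * a * (res w' k)⁻¹))⁻¹, mul_mem (mul_mem (mul_mem hk (hH.ev i a ha))
      (inv_mem hk)) (inv_mem (hH.ev i _ ((alternatingGroup.normal (α := U)).conj_mem _ ha _))), ?_, fun e => hna ?_⟩
    · simp only [map_mul, map_inv, res_cf, mul_inv_cancel]
    · simp only [map_mul, map_inv, res_cf, mul_inv_eq_one] at e
      calc (res w' k)⁻¹ * res w k * a = (res w' k)⁻¹ * (res w k * a * (res w k)⁻¹) * res w k := by group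
        _ = _ := by rw [e]; group
  have key : ∀ n, ∀ g : FP (U := U) i, g.1 ∈ H → (Finset.univ.filter fun f => res f g ≠ 1).card = n → g.1 = 1 := by
    intro n
    induction n using Nat.strong_induction_on with
    | _ n ih =>
    intro g hg hn
    by_cases h0 : ∀ f, res f g = 1
    · exact Equiv.ext fun f => by rw [eq_res, h0]; simp
    push Not at h0
    obtain ⟨w, hw⟩ := h0
    obtain ⟨j, hj⟩ := hH.two i
    refine h4 ι U H hH j (w j) g.1 hg fun w' hw' => ?_
    by_cases h1 : res w' g = 1
    · rw [eq_res, h1]; simp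
    exfalso
    obtain ⟨g', hg', e1, e2⟩ := C1 w w' ⟨j, hj, Ne.symm hw'⟩
    obtain ⟨a, ha, hna⟩ := exists_nc hH.five hw e2
    let y := cf i a * g' * (cf i a)⁻¹
    have hy : y.1 ∈ H := mul_mem (mul_mem (hH.ev i a ha) hg') (inv_mem (hH.ev i a ha))
    have ry : ∀ f, res f y = a * res f g' * a⁻¹ := fun f => by simp only [y, map_mul, map_inv, res_cf]
    have hlt : (Finset.univ.filter fun f => res f (g * y * g⁻¹ * y⁻¹) ≠ 1).card < n := by
      rw [← hn]
      refine Finset.card_lt_card ⟨fun f hf => ?_, fun hs => ?_⟩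
      · simp only [Finset.mem_filter, Finset.mem_univ, true_and] at hf ⊢
        intro e
        exact hf (by simp only [map_mul, map_inv, e, one_mul, inv_one, mul_one, mul_inv_cancel])
      · have := hs (Finset.mem_filter.2 ⟨Finset.mem_univ w', h1⟩)
        simp only [Finset.mem_filter, Finset.mem_univ, true_and] at this
        exact this (by simp only [map_mul, map_inv, ry, e1, mul_one, mul_inv_cancel, inv_one])
    have := ih _ hlt (g * y * g⁻¹ * y⁻¹)
      (mul_mem (mul_mem (mul_mem hg hy) (inv_mem hg)) (inv_mem hy)) rfl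
    have e : g * y * g⁻¹ * y⁻¹ = 1 := Subtype.ext this
    have e' := congrArg (res w) e
    rw [map_mul, map_mul, map_mul, map_inv, map_inv, map_one, mul_inv_eq_one, mul_inv_eq_iff_eq_mul, ry] at e'
    exact hna e'
  exact ⟨1, by rw [map_one]; exact key _ ⟨h, hf⟩ hh rfl⟩

end L.Pw
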