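import Mathlib

/-! A Sylow 2-subgroup of the alternating group of degree 11, by enumeration. -/

set_option autoImplicit false
set_option maxRecDepth 100000

namespace L.FL
open Equiv Equiv.Perm

abbrev Pm := Equiv.Perm (Fin 11)

def code (σ : Pm) : List ℕ := List.ofFn fun i => (σ i).val
def cmp (x y : List ℕ) : List ℕ := y.map fun j => x.getD j 0

theorem code_get (σ : Pm) (i : Fin 11) : (code σ).getD i.val 0 = (σ i).val := by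
  rw [code, List.getD_eq_getElem _ _ (by simp), List.getElem_ofFn]

theorem code_mul (σ τ : Pm) : code (σ * τ) = cmp (code σ) (code τ) := by
  show List.ofFn _ = List.map _ (List.ofFn _)
  rw [List.map_ofFn]
  congr 1
  funext i
  exact (code_get σ (τ i)).symm

theorem code_inj : Function.Injective code := fun σ τ h => Equiv.ext fun i => Fin.ext <| by
  rw [← code_get, ← code_get, h]

def genP : List Pm → List Pm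
  | [] => [1]
  | h :: t => genP t ++ (genP t).map (h * ·)
def genC : List (List ℕ) → List (List ℕ)
  | [] => [code 1]
  | h :: t => genC t ++ (genC t).map (cmp h)

theorem code_gen (hs : List Pm) : (genP hs).map code = genC (hs.map code) := by
  induction hs with
  | nil => rfl
  | cons h t ih =>
    rw [genP, List.map_cons, genC, List.map_append, ← ih, List.map_map, List.map_map]
    congr 2
    funext x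
    exact code_mul h x

theorem genP_mem {K : Subgroup Pm} : ∀ {hs : List Pm}, (∀ h ∈ hs, h ∈ K) → ∀ x ∈ genP hs, x ∈ K
  | [], _, x, hx => by rw [List.mem_singleton.1 hx]; exact one_mem _
  | h :: t, H, x, hx => by
    have ih := genP_mem (hs := t) fun k hk => H k (List.mem_cons_of_mem _ hk)
    rcases List.mem_append.1 hx with hx | hx
    · exact ih x hx
    · obtain ⟨y, hy, rfl⟩ := List.mem_map.1 hx
      exact mul_mem (H h List.mem_cons_self) (ih y hy)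

def ea : Pm := swap 0 1 * swap 2 3
def ea' : Pm := swap 4 5 * swap 6 7
def eb : Pm := swap 0 2 * swap 1 3
def ec : Pm := ea * ea'
def ga : Pm := swap 0 4 * swap 1 5 * (swap 2 6 * swap 3 7)
def gb : Pm := eb * ea'
def gc : Pm := ea * (swap 4 5 * swap 8 9)
def hs : List Pm := [ga, swap 4 6 * swap 5 7, eb, swap 6 7 * swap 8 9, swap 4 5 * swap 8 9, swap 2 3 * swap 8 9,
  swap 0 1 * swap 8 9]
def LC : List (List ℕ) := [[0, 1, 2, 3, 4, 5, 6, 7, 8, 9, 10], [1, 0, 2, 3, 4, 5, 6, 7, 9, 8, 10], [0, 1, 3, 2, 4, 5, 6, 7, 9, 8, 10], [1, 0, 3, 2, 4, 5, 6, 7, 8, 9, 10], [0, 1, 2, 3, 5, 4, 6, 7, 9, 8, 10], [1, 0, 2, 3, 5, 4, 6, 7, 8, 9, 10], [0, 1, 3, 2, 5, 4, 6, 7, 8, 9, 10], [1, 0, 3, 2, 5, 4, 6, 7, 9, 8, 10], [0, 1, 2, 3, 4, 5, 7, 6, 9, 8, 10], [1, 0, 2, 3, 4, 5, 7, 6, 8, 9, 10], [0, 1, 3, 2, 4, 5, 7, 6, 8, 9, 10], [1,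 0, 3, 2, 4, 5, 7, 6, 9, 8, 10], [0, 1, 2, 3, 5, 4, 7, 6, 8, 9, 10], [1, 0, 2, 3, 5, 4, 7, 6, 9, 8, 10], [0, 1, 3, 2, 5, 4, 7, 6, 9, 8, 10], [1, 0, 3, 2, 5, 4, 7, 6, 8, 9, 10], [2, 3, 0, 1, 4, 5, 6, 7, 8, 9, 10], [3, 2, 0, 1, 4, 5, 6, 7, 9, 8, 10], [2, 3, 1, 0, 4, 5, 6, 7, 9, 8, 10], [3, 2, 1, 0, 4, 5, 6, 7, 8, 9, 10], [2, 3, 0, 1, 5, 4, 6, 7, 9, 8, 10], [3, 2, 0, 1, 5, 4, 6, 7, 8, 9, 10], [2, 3, 1, 0, 5, 4, 6, 7, 8, 9, 10], [3, 2, 1, 0, 5, 4, 6, 7, 9, 8, 10], [2, 3, 0, 1, 4, 5, 7, 6, 9, 8, 10], [3, 2, 0, 1, 4, 5, 7, 6, 8, 9, 10], [2, 3, 1, 0, 4, 5, 7, 6, 8, 9, 10], [3, 2, 1, 0, 4, 5, 7, 6, 9, 8, 10], [2, 3, 0, 1, 5, 4, 7, 6, 8, 9, 10], [3, 2, 0, 1, 5, 4, 7, 6, 9, 8, 10], [2, 3, 1, 0, 5, 4, 7, 6, 9, 8, 10], [3, 2, 1, 0, 5, 4, 7, 6, 8, 9, 10], [0, 1, 2, 3, 6, 7, 4, 5, 8, 9, 10], [1, 0, 2, 3, 6, 7, 4, 5, 9, 8,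 10], [0, 1, 3, 2, 6, 7, 4, 5, 9, 8, 10], [1, 0, 3, 2, 6, 7, 4, 5, 8, 9, 10], [0, 1, 2, 3, 7, 6, 4, 5, 9, 8, 10], [1, 0, 2, 3, 7, 6, 4, 5, 8, 9, 10], [0, 1, 3, 2, 7, 6, 4, 5, 8, 9, 10], [1, 0, 3, 2, 7, 6, 4, 5, 9, 8, 10], [0, 1, 2, 3, 6, 7, 5, 4, 9, 8, 10], [1, 0, 2, 3, 6, 7, 5, 4, 8, 9, 10], [0, 1, 3, 2, 6, 7, 5, 4, 8, 9, 10], [1, 0, 3, 2, 6, 7, 5, 4, 9, 8, 10], [0, 1, 2, 3, 7, 6, 5, 4, 8, 9, 10], [1, 0, 2, 3, 7, 6, 5, 4, 9, 8, 10], [0, 1, 3, 2, 7, 6, 5, 4, 9, 8, 10], [1, 0, 3, 2, 7, 6, 5, 4, 8, 9, 10], [2, 3, 0, 1, 6, 7, 4, 5, 8, 9, 10], [3, 2, 0, 1, 6, 7, 4, 5, 9, 8, 10], [2, 3, 1, 0, 6, 7, 4, 5, 9, 8, 10], [3, 2, 1, 0, 6, 7, 4, 5, 8, 9, 10], [2, 3, 0, 1, 7, 6, 4, 5, 9, 8, 10], [3, 2, 0, 1, 7, 6, 4, 5, 8, 9, 10], [2, 3, 1, 0, 7, 6, 4, 5, 8, 9, 10], [3, 2, 1, 0, 7, 6, 4, 5, 9, 8, 10], [2, 3, 0, 1, 6, 7, 5,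 4, 9, 8, 10], [3, 2, 0, 1, 6, 7, 5, 4, 8, 9, 10], [2, 3, 1, 0, 6, 7, 5, 4, 8, 9, 10], [3, 2, 1, 0, 6, 7, 5, 4, 9, 8, 10], [2, 3, 0, 1, 7, 6, 5, 4, 8, 9, 10], [3, 2, 0, 1, 7, 6, 5, 4, 9, 8, 10], [2, 3, 1, 0, 7, 6, 5, 4, 9, 8, 10], [3, 2, 1, 0, 7, 6, 5, 4, 8, 9, 10], [4, 5, 6, 7, 0, 1, 2, 3, 8, 9, 10], [5, 4, 6, 7, 0, 1, 2, 3, 9, 8, 10], [4, 5, 7, 6, 0, 1, 2, 3, 9, 8, 10], [5, 4, 7, 6, 0, 1, 2, 3, 8, 9, 10], [4, 5, 6, 7, 1, 0, 2, 3, 9, 8, 10], [5, 4, 6, 7, 1, 0, 2, 3, 8, 9, 10], [4, 5, 7, 6, 1, 0, 2, 3, 8, 9, 10], [5, 4, 7, 6, 1, 0, 2, 3, 9, 8, 10], [4, 5, 6, 7, 0, 1, 3, 2, 9, 8, 10], [5, 4, 6, 7, 0, 1, 3, 2, 8, 9, 10], [4, 5, 7, 6, 0, 1, 3, 2, 8, 9, 10], [5, 4, 7, 6, 0, 1, 3, 2, 9, 8, 10], [4, 5, 6, 7, 1, 0, 3, 2, 8, 9, 10], [5, 4, 6, 7, 1, 0, 3, 2, 9, 8, 10], [4, 5, 7, 6, 1, 0, 3, 2, 9, 8, 10], [5, 4, 7, 6,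 1, 0, 3, 2, 8, 9, 10], [6, 7, 4, 5, 0, 1, 2, 3, 8, 9, 10], [7, 6, 4, 5, 0, 1, 2, 3, 9, 8, 10], [6, 7, 5, 4, 0, 1, 2, 3, 9, 8, 10], [7, 6, 5, 4, 0, 1, 2, 3, 8, 9, 10], [6, 7, 4, 5, 1, 0, 2, 3, 9, 8, 10], [7, 6, 4, 5, 1, 0, 2, 3, 8, 9, 10], [6, 7, 5, 4, 1, 0, 2, 3, 8, 9, 10], [7, 6, 5, 4, 1, 0, 2, 3, 9, 8, 10], [6, 7, 4, 5, 0, 1, 3, 2, 9, 8, 10], [7, 6, 4, 5, 0, 1, 3, 2, 8, 9, 10], [6, 7, 5, 4, 0, 1, 3, 2, 8, 9, 10], [7, 6, 5, 4, 0, 1, 3, 2, 9, 8, 10], [6, 7, 4, 5, 1, 0, 3, 2, 8, 9, 10], [7, 6, 4, 5, 1, 0, 3, 2, 9, 8, 10], [6, 7, 5, 4, 1, 0, 3, 2, 9, 8, 10], [7, 6, 5, 4, 1, 0, 3, 2, 8, 9, 10], [4, 5, 6, 7, 2, 3, 0, 1, 8, 9, 10], [5, 4, 6, 7, 2, 3, 0, 1, 9, 8, 10], [4, 5, 7, 6, 2, 3, 0, 1, 9, 8, 10], [5, 4, 7, 6, 2, 3, 0, 1, 8, 9, 10], [4, 5, 6, 7, 3, 2, 0, 1, 9, 8, 10], [5, 4, 6, 7, 3, 2, 0, 1, 8, 9, 10], [4,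 5, 7, 6, 3, 2, 0, 1, 8, 9, 10], [5, 4, 7, 6, 3, 2, 0, 1, 9, 8, 10], [4, 5, 6, 7, 2, 3, 1, 0, 9, 8, 10], [5, 4, 6, 7, 2, 3, 1, 0, 8, 9, 10], [4, 5, 7, 6, 2, 3, 1, 0, 8, 9, 10], [5, 4, 7, 6, 2, 3, 1, 0, 9, 8, 10], [4, 5, 6, 7, 3, 2, 1, 0, 8, 9, 10], [5, 4, 6, 7, 3, 2, 1, 0, 9, 8, 10], [4, 5, 7, 6, 3, 2, 1, 0, 9, 8, 10], [5, 4, 7, 6, 3, 2, 1, 0, 8, 9, 10], [6, 7, 4, 5, 2, 3, 0, 1, 8, 9, 10], [7, 6, 4, 5, 2, 3, 0, 1, 9, 8, 10], [6, 7, 5, 4, 2, 3, 0, 1, 9, 8, 10], [7, 6, 5, 4, 2, 3, 0, 1, 8, 9, 10], [6, 7, 4, 5, 3, 2, 0, 1, 9, 8, 10], [7, 6, 4, 5, 3, 2, 0, 1, 8, 9, 10], [6, 7, 5, 4, 3, 2, 0, 1, 8, 9, 10], [7, 6, 5, 4, 3, 2, 0, 1, 9, 8, 10], [6, 7, 4, 5, 2, 3, 1, 0, 9, 8, 10], [7, 6, 4, 5, 2, 3, 1, 0, 8, 9, 10], [6, 7, 5, 4, 2, 3, 1, 0, 8, 9, 10], [7, 6, 5, 4, 2, 3, 1, 0, 9, 8, 10], [6, 7, 4, 5, 3, 2, 1, 0, 8, 9,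 10], [7, 6, 4, 5, 3, 2, 1, 0, 9, 8, 10], [6, 7, 5, 4, 3, 2, 1, 0, 9, 8, 10], [7, 6, 5, 4, 3, 2, 1, 0, 8, 9, 10]]

def HC : List (List ℕ) := [[4, 5, 6, 7, 0, 1, 2, 3, 8, 9, 10], [0, 1, 2, 3, 6, 7, 4, 5, 8, 9, 10], [2, 3, 0, 1, 4, 5, 6, 7, 8, 9, 10], [0, 1, 2, 3, 4, 5, 7, 6, 9, 8, 10], [0, 1, 2, 3, 5, 4, 6, 7, 9, 8, 10], [0, 1, 3, 2, 4, 5, 6, 7, 9, 8, 10], [1, 0, 2, 3, 4, 5, 6, 7, 9, 8, 10]]
def c1 : List ℕ := [0, 1, 2, 3, 4, 5, 6, 7, 8, 9, 10]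
def cC : List ℕ := [1, 0, 3, 2, 5, 4, 7, 6, 8, 9, 10]
def cA : List ℕ := [1, 0, 3, 2, 4, 5, 6, 7, 8, 9, 10]
def cB : List ℕ := [0, 1, 2, 3, 5, 4, 7, 6, 8, 9, 10]
def cS : List ℕ := [0, 1, 2, 3, 4, 5, 6, 7, 9, 8, 10]
theorem HC_eq : hs.map code = HC := by decide +kernel
theorem c1_eq : code 1 = c1 := by decide +kernel
theorem cC_eq : code ec = cC := by decide +kernel
theorem cA_eq : code ea = cA := by decide +kernel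
theorem cB_eq : code ea' = cB := by decide +kernel
theorem cS_eq : code (swap 8 9) = cS := by decide +kernel
theorem LC_eq : genC (hs.map code) = LC := by rw [HC_eq]; decide +kernel
theorem hs_HC {h : Pm} (hh : h ∈ hs) : code h ∈ HC := HC_eq ▸ List.mem_map_of_mem hh
theorem HC_hs {x : List ℕ} (hh : x ∈ HC) : ∃ h ∈ hs, code h = x := List.mem_map.1 (HC_eq ▸ hh)

def Py : Subgroup Pm := Subgroup.closure {x | x ∈ hs}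

theorem hs_mul : ∀ h ∈ HC, ∀ x ∈ LC, cmp h x ∈ LC := by decide +kernel
theorem hs_inv (h : Pm) (hh : h ∈ hs) : h⁻¹ = h := by
  have : ∀ h ∈ HC, cmp h h = c1 := by decide +kernel
  exact inv_eq_of_mul_eq_one_right (code_inj (by rw [code_mul, c1_eq]; exact this _ (hs_HC hh)))

theorem mem_gen {σ : Pm} : σ ∈ genP hs ↔ code σ ∈ LC := by
  rw [← LC_eq, ← code_gen, List.mem_map_of_injective code_inj]

theorem mem_Py {σ : Pm} : σ ∈ Py ↔ code σ ∈ LC := by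
  refine ⟨fun h => ?_, fun h => genP_mem (fun k hk => Subgroup.subset_closure hk) _ (mem_gen.2 h)⟩
  induction h using Subgroup.closure_induction_left with
  | one => rw [c1_eq]; decide +kernel
  | mul_left x hx y _ ih => rw [code_mul]; exact hs_mul _ (hs_HC hx) _ ih
  | inv_mul_cancel x hx y _ ih => rw [hs_inv x hx, code_mul]; exact hs_mul _ (hs_HC hx) _ ih

theorem card_Py : Nat.card Py = 128 := by
  have hn : (genP hs).Nodup := List.Nodup.of_map code (by rw [code_gen, LC_eq]; decide +kernel)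
  have hl : (genP hs).length = 128 := by
    rw [← List.length_map (f := code), code_gen, LC_eq]; decide +kernel
  rw [← hl, ← List.toFinset_card_of_nodup hn, ← Fintype.card_coe, ← Nat.card_eq_fintype_card]
  exact Nat.card_congr (Equiv.subtypeEquivRight fun x => by rw [List.mem_toFinset, mem_gen, mem_Py])

theorem Py_le : Py ≤ alternatingGroup (Fin 11) := (Subgroup.closure_le _).2 fun x hx => by
  have : ∀ h ∈ hs, sign h = 1 := by simp [hs, ga, eb]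
  exact this x hx

theorem hs_Py : ∀ h ∈ hs, h ∈ Py := fun _ h => Subgroup.subset_closure h

theorem cen_chk : ∀ x ∈ LC, (∀ h ∈ HC, cmp h x = cmp x h) → x = c1 ∨ x = cC := by
  decide +kernel
theorem cen {z : Pm} (hz : z ∈ Py) (h : ∀ g ∈ Py, g * z = z * g) : z = 1 ∨ z = ec :=
  (cen_chk _ (mem_Py.1 hz) fun k hk => by
    obtain ⟨k, hk', rfl⟩ := HC_hs hk
    rw [← code_mul, ← code_mul, h k (hs_Py k hk')]).imp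
    (fun e => code_inj (e.trans c1_eq.symm)) fun e => code_inj (e.trans cC_eq.symm)
theorem ec_cen_chk : ∀ x ∈ LC, cmp x cC = cmp cC x := by decide +kernel
theorem ec_cen {g : Pm} (hg : g ∈ Py) : g * ec = ec * g :=
  code_inj (by rw [code_mul, code_mul, cC_eq]; exact ec_cen_chk _ (mem_Py.1 hg))
theorem ea_chk : ∀ x ∈ LC, cmp x cA = cmp cA x ∨ cmp x cA = cmp cC (cmp cA x) := by
  decide +kernel
theorem ea_cen {g : Pm} (hg : g ∈ Py) : g * ea = ea * g ∨ g * ea = ec * (ea * g) :=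
  (ea_chk _ (mem_Py.1 hg)).imp (fun e => code_inj (by rw [code_mul, code_mul, cA_eq]; exact e))
    fun e => code_inj (by rw [code_mul, code_mul, code_mul, cA_eq, cC_eq]; exact e)
theorem z2_chk : ∀ x ∈ LC, (∀ h ∈ HC, cmp h x = cmp x h ∨ cmp h x = cmp cC (cmp x h)) →
    x = c1 ∨ x = cC ∨ x = cA ∨ x = cB := by decide +kernel
theorem fix10 : ∀ x ∈ LC, x.getD 10 0 = 10 := by decide +kernel

def cc (p : ℕ) : ℕ := cC.getD p 0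
def nchk : Bool := (List.range 11).all fun p0 => cc p0 == p0 || (List.range 11).all fun p2 => cc p2 == p2 ||
  (List.range 11).all fun p4 => cc p4 == p4 || (List.range 11).all fun p6 => cc p6 == p6 ||
  !(decide [p0, cc p0, p2, cc p2, p4, cc p4, p6, cc p6].Nodup) ||
  (List.range 11).all fun p8 => cc p8 != p8 || (List.range 11).all fun p9 => cc p9 != p9 ||
    !(decide [p8, p9, 10].Nodup) ||
    (fun l => (cmp l cA != cmp cA l && cmp l cA != cmp cB l) ||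
      decide (l ∈ LC) || decide (cmp l cS ∈ LC)) [p0, cc p0, p2, cc p2, p4, cc p4, p6, cc p6, p8, p9, 10]
theorem nchk_ok : nchk = true := by decide +kernel

theorem words : hs = [ga, ga * gb * gc * ga * gb * ga * gc * ga * gb, ga * gb * ga * gb * gc * ga * gb * ga * gc, ga * gb * gc * ga * gb * gc * ga * gb * gc * ga * gb, ga * gc * ga * gb * ga * gc * ga * gb * gc, ga * gb * ga * gb * gc * ga * gb * gc * ga * gb * gc, ga * gb * ga * gc * ga * gb * gc * ga * gc] := List.map_injective_iff.2 code_inj (by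
  have a : code ga = [4, 5, 6, 7, 0, 1, 2, 3, 8, 9, 10] := by decide +kernel
  have b : code gb = [2, 3, 0, 1, 5, 4, 7, 6, 8, 9, 10] := by decide +kernel
  have c : code gc = [1, 0, 3, 2, 5, 4, 6, 7, 9, 8, 10] := by decide +kernel
  simp only [HC_eq, List.map_cons, List.map_nil, code_mul, a, b, c]
  decide +kernel)

end L.FL
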