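import Cfsg.Agent.L.FLa

/-! The normaliser, centre and strongly closed subgroups of the Sylow 2-subgroup of the alternating group of degree 11. -/

set_option autoImplicit false
set_option maxRecDepth 100000

namespace L.FL
open Equiv Equiv.Perm

theorem ea_Py : ea ∈ Py := mem_Py.2 (by rw [cA_eq]; decide +kernel)
theorem ec_Py : ec ∈ Py := mem_Py.2 (by rw [cC_eq]; decide +kernel)
theorem eb_Py : eb ∈ Py := hs_Py _ (by simp [hs])
theorem ec_ne : ec ≠ 1 := by decide +kernel

theorem cc_eq (i : Fin 11) : cc i.val = (ec i).val := by rw [cc, ← cC_eq, code_get]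

theorem norm {k : Pm} (hk : k ∈ alternatingGroup (Fin 11)) (h : ∀ g, g ∈ Py ↔ k * g * k⁻¹ ∈ Py) : k ∈ Py := by
  have h' : ∀ g ∈ Py, k⁻¹ * g * k ∈ Py := fun g hg => (h _).2 (by simpa [mul_assoc] using hg)
  have hc : k * ec * k⁻¹ = ec := (cen ((h _).1 ec_Py) fun g hg => by
    have := ec_cen (h' g hg)
    calc g * (k * ec * k⁻¹) = k * (k⁻¹ * g * k * ec) * k⁻¹ := by group
      _ = _ := by rw [this]; group).resolve_left (by simpa using ec_ne)
  have hc' : k * ec = ec * k := by rw [← mul_inv_eq_iff_eq_mul, hc]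
  have ha : k * ea * k⁻¹ = ea ∨ k * ea * k⁻¹ = ea' := by
    have := z2_chk _ (mem_Py.1 ((h _).1 ea_Py)) fun g hg => by
      obtain ⟨g, hg', rfl⟩ := HC_hs hg
      rw [← cC_eq, ← code_mul, ← code_mul, ← code_mul]
      refine (ea_cen (h' g (hs_Py g hg'))).imp (fun e => congrArg code ?_) fun e => congrArg code ?_
      · calc g * (k * ea * k⁻¹) = k * (k⁻¹ * g * k * ea) * k⁻¹ := by group
          _ = _ := by rw [e]; group
      · calc g * (k * ea * k⁻¹) = k * (k⁻¹ * g * k * ea) * k⁻¹ := by group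
          _ = (k * ec * k⁻¹) * (k * ea * k⁻¹ * g) := by rw [e]; group
          _ = _ := by rw [hc]
    rw [← c1_eq, ← cC_eq, ← cA_eq, ← cB_eq, code_inj.eq_iff, code_inj.eq_iff, code_inj.eq_iff, code_inj.eq_iff] at this
    rcases this with e | e | e
    · exact absurd (by simpa using e) (show ea ≠ 1 by decide +kernel)
    · rw [← hc] at e
      exact absurd (by simpa using e) (show ea ≠ ec by decide +kernel)
    · exact e
  have h10 : k 10 = 10 := by
    have : ∀ g ∈ hs, g (k 10) = k 10 := fun g hg => by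
      have := fix10 _ (mem_Py.1 (h' g (hs_Py g hg)))
      rw [show (10 : ℕ) = (10 : Fin 11).val from rfl, code_get] at this
      have e : (k⁻¹ * g * k) 10 = 10 := Fin.ext this
      rw [mul_apply, mul_apply, Equiv.Perm.inv_eq_iff_eq] at e
      exact e
    have x : ∀ j < 11, (∀ h ∈ HC, h.getD j 0 = j) → j = 10 := by decide +kernel
    refine Fin.ext (x _ (k 10).2 fun g hg => ?_)
    obtain ⟨g, hg', rfl⟩ := HC_hs hg
    rw [code_get, this g hg']
  have e : ∀ i, cc (k i).val = (k (ec i)).val := fun i => by rw [cc_eq, ← mul_apply, ← hc', mul_apply]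
  have hl : code k = [(k 0).val, cc (k 0).val, (k 2).val, cc (k 2).val, (k 4).val, cc (k 4).val, (k 6).val, cc (k 6).val,
      (k 8).val, (k 9).val, 10] := by
    have x : code k = [(k 0).val, (k 1).val, (k 2).val, (k 3).val, (k 4).val, (k 5).val, (k 6).val, (k 7).val,
      (k 8).val, (k 9).val, (k 10).val] := rfl
    rw [x, e, e, e, e, h10, show ec 0 = 1 by decide +kernel, show ec 2 = 3 by decide +kernel,
      show ec 4 = 5 by decide +kernel, show ec 6 = 7 by decide +kernel]
    rfl
  have hn : (code k).Nodup := List.nodup_ofFn.2 (Fin.val_injective.comp k.injective)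
  have ne : ∀ i, ec i ≠ i → (cc (k i).val == (k i).val) = false := fun i hi => by
    rw [e, beq_eq_false_iff_ne]
    exact fun x => hi (k.injective (Fin.ext x))
  have eq : ∀ i, ec i = i → (cc (k i).val != (k i).val) = false := fun i hi => by
    rw [e, hi]; exact bne_self_eq_false _
  have m : ∀ i, (k i).val ∈ List.range 11 := fun i => List.mem_range.2 (k i).2
  have c0 := List.all_eq_true.1 nchk_ok _ (m 0)
  rw [ne 0 (by decide +kernel), Bool.false_or] at c0
  have c2 := List.all_eq_true.1 c0 _ (m 2)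
  rw [ne 2 (by decide +kernel), Bool.false_or] at c2
  have c4 := List.all_eq_true.1 c2 _ (m 4)
  rw [ne 4 (by decide +kernel), Bool.false_or] at c4
  have c6 := List.all_eq_true.1 c4 _ (m 6)
  rw [hl] at hn
  have n1 : [(k 0).val, cc (k 0).val, (k 2).val, cc (k 2).val, (k 4).val, cc (k 4).val, (k 6).val, cc (k 6).val].Nodup :=
    (List.take_sublist 8 _).nodup hn
  have n2 : [(k 8).val, (k 9).val, 10].Nodup := (List.drop_sublist 8 _).nodup hn
  rw [ne 6 (by decide +kernel), Bool.false_or, decide_eq_true n1, Bool.not_true,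
    Bool.false_or] at c6
  have c8 := List.all_eq_true.1 c6 _ (m 8)
  rw [eq 8 (by decide +kernel), Bool.false_or] at c8
  have c9 := List.all_eq_true.1 c8 _ (m 9)
  rw [eq 9 (by decide +kernel), Bool.false_or, decide_eq_true n2, Bool.not_true,
    Bool.false_or, ← hl] at c9
  have hz : (cmp (code k) cA != cmp cA (code k) && cmp (code k) cA != cmp cB (code k)) = false := by
    rw [← cA_eq, ← cB_eq, ← code_mul, ← code_mul, ← code_mul]
    rcases ha with x | x
    · rw [mul_inv_eq_iff_eq_mul.1 x, bne_self_eq_false, Bool.false_and]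
    · rw [mul_inv_eq_iff_eq_mul.1 x, bne_self_eq_false, Bool.and_false]
  simp only [hz, Bool.false_or, Bool.or_eq_true, decide_eq_true_eq] at c9
  rcases c9 with x | x
  · exact mem_Py.2 x
  · rw [← cS_eq, ← code_mul, ← mem_Py] at x
    have := (Subgroup.mul_mem_cancel_left _ hk).1 (Py_le x)
    rw [mem_alternatingGroup, sign_swap (by decide)] at this
    exact absurd this (by decide)

theorem cty {σ : Pm} (h1 : σ ≠ 1) (h2 : σ * σ = 1) : ∃ n, σ.cycleType = Multiset.replicate n 2 ∧ σ.support.card = n * 2 := by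
  have ho : orderOf σ = 2 := orderOf_eq_prime (by rw [pow_two, h2]) h1
  obtain ⟨n, hn⟩ := cycleType_prime_order (σ := σ) (ho ▸ Nat.prime_two)
  rw [ho] at hn
  exact ⟨n + 1, hn, by rw [← sum_cycleType, hn, Multiset.sum_replicate, smul_eq_mul]⟩

theorem conj_inv {σ τ : Pm} (hσ : σ ∈ alternatingGroup (Fin 11)) (hτ : τ ∈ alternatingGroup (Fin 11))
    (h1 : σ ≠ 1) (h2 : σ * σ = 1) (h3 : τ ≠ 1) (h4 : τ * τ = 1) (h : σ.support.card = τ.support.card)
    (h9 : σ.support.card ≤ 9) : ∃ k ∈ alternatingGroup (Fin 11), k * σ * k⁻¹ = τ := by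
  obtain ⟨n, a, b⟩ := cty h1 h2
  obtain ⟨m, c, d⟩ := cty h3 h4
  obtain rfl : n = m := by omega
  obtain ⟨k, hk⟩ := isConj_iff.1 (alternatingGroup.isConj_of (σ := ⟨σ, hσ⟩) (τ := ⟨τ, hτ⟩)
    (isConj_iff_cycleType_eq.2 (a.trans c.symm)) (by simp only [Fintype.card_fin]; omega))
  exact ⟨k, k.2, congrArg Subtype.val hk⟩

theorem supp_inv {σ : Pm} (hσ : σ ∈ alternatingGroup (Fin 11)) (h1 : σ ≠ 1) (h2 : σ * σ = 1) :
    σ.support.card = 4 ∨ σ.support.card = 8 := by
  obtain ⟨n, a, b⟩ := cty h1 h2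
  have h3 : σ.support.card ≤ 11 := (Finset.card_le_univ _).trans (by simp)
  have h4 : σ.support.card ≠ 0 := by rwa [Ne, card_support_eq_zero]
  rw [mem_alternatingGroup, sign_of_cycleType, sum_cycleType, a, b, Multiset.card_replicate] at hσ
  have : n ≤ 5 := by omega
  interval_cases n <;> first | omega | exact absurd hσ (by decide)

theorem sc {T : Subgroup Pm} (hc : ec ∈ T)
    (h : ∀ x ∈ T, ∀ k ∈ alternatingGroup (Fin 11), k * x * k⁻¹ ∈ Py → k * x * k⁻¹ ∈ T) : Py ≤ T := by
  have key : ∀ g ∈ Py, g ≠ 1 → g * g = 1 → g.support.card = 8 → g ∈ T := fun g hg h1 h2 h3 => by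
    obtain ⟨k, hk, rfl⟩ := conj_inv (Py_le ec_Py) (Py_le hg) ec_ne (by decide +kernel) h1 h2
      (h3 ▸ by decide +kernel) (by decide +kernel)
    exact h _ hc k hk hg
  have a : ga ∈ T := key _ (hs_Py _ (by simp [hs])) (by decide +kernel) (by decide +kernel) (by decide +kernel)
  have b : gb ∈ T := key _ (mem_Py.2 (by decide +kernel)) (by decide +kernel) (by decide +kernel) (by decide +kernel)
  have c : gc ∈ T := key _ (mem_Py.2 (by decide +kernel)) (by decide +kernel) (by decide +kernel) (by decide +kernel)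
  refine (Subgroup.closure_le _).2 fun x hx => ?_
  have hx' : x ∈ hs := hx
  rw [words] at hx'
  generalize ga = u at a hx'
  generalize gb = v at b hx'
  generalize gc = w at c hx'
  simp only [List.mem_cons, List.not_mem_nil, or_false] at hx'
  rcases hx' with rfl | rfl | rfl | rfl | rfl | rfl | rfl <;> simp only [SetLike.mem_coe] <;>
    repeat' first | exact a | exact b | exact c | apply mul_mem

end L.FL
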