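import Cfsg.Agent.L.FLb
import Cfsg.Agent.H14.Fus
import Cfsg.Agent.S0215

/-! A simple group with an involution centraliser `2.A11` (non-split) of odd index has a simple 2-fusion system. -/

set_option autoImplicit false
set_option maxRecDepth 100000

namespace L.FL
open Equiv Equiv.Perm Cfsg

section cover
variable {C : Type*} [Group C] {F : C →* Pm} {t : C} (ht : ∀ x, x * t = t * x) (t2 : t * t = 1)
  (hk : ∀ x, F x = 1 → x = 1 ∨ x = t) (hr : ∀ σ ∈ alternatingGroup (Fin 11), ∃ x, F x = σ)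
include ht hk

theorem kc {u : C} (hu : F u = 1) (x : C) : x * u = u * x := by
  rcases hk u hu with rfl | rfl
  · rw [mul_one, one_mul]
  · exact ht x

include t2 in
theorem k2 {u : C} (hu : F u = 1) : u * u = 1 := by
  rcases hk u hu with rfl | rfl
  · exact one_mul _
  · exact t2

include t2 in
theorem sq_eq {x y : C} (h : F x = F y) : x * x = y * y := by
  have hu : F (y⁻¹ * x) = 1 := by rw [map_mul, map_inv, h, inv_mul_cancel]
  have e : x = y * (y⁻¹ * x) := by group
  generalize y⁻¹ * x = u at hu e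
  subst e
  calc y * u * (y * u) = y * (u * y) * u := by group
    _ = y * y * (u * u) := by rw [← kc ht hk hu y]; group
    _ = _ := by rw [k2 ht t2 hk hu, mul_one]

include t2 hr in
theorem sq_conj {x y : C} {k : Pm} (hk' : k ∈ alternatingGroup (Fin 11)) (h : k * F x * k⁻¹ = F y) (h2 : F x * F x = 1) :
    x * x = y * y := by
  obtain ⟨g, rfl⟩ := hr k hk'
  rw [← sq_eq ht t2 hk (x := g * x * g⁻¹) (y := y) (by rw [map_mul, map_mul, map_inv, h])]
  calc x * x = g * (x * x) * g⁻¹ := by rw [kc ht hk (by rw [map_mul, h2]) g]; group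
    _ = _ := by group

include t2 in
theorem comm3 {x y : C} (h : F x * F y = F y * F x) (h3 : F y ^ 3 = 1) : x * y = y * x := by
  have hu : F (y⁻¹ * (x * y * x⁻¹)) = 1 := by simp only [map_mul, map_inv, h]; group
  have e : x * y * x⁻¹ = y * (y⁻¹ * (x * y * x⁻¹)) := by group
  generalize y⁻¹ * (x * y * x⁻¹) = u at hu e
  have c : Commute y u := kc ht hk hu y
  have e3 : (x * y * x⁻¹) ^ 3 = y ^ 3 := by
    rw [conj_pow, kc ht hk (by rw [map_pow, h3]) x]; group
  rw [e, c.mul_pow, mul_eq_left, pow_succ, pow_two, k2 ht t2 hk hu, one_mul] at e3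
  rw [e3, mul_one] at e
  rw [← mul_inv_eq_iff_eq_mul, e]

include t2 hr in
theorem comm33 {x y : C} {r s : Pm} (hr' : r ∈ alternatingGroup (Fin 11)) (hs' : s ∈ alternatingGroup (Fin 11))
    (h1 : F x * r = r * F x) (h2 : F x * s = s * F x) (r3 : r ^ 3 = 1) (s3 : s ^ 3 = 1) (hy : F y = r * s) :
    x * y = y * x := by
  obtain ⟨a, rfl⟩ := hr r hr'
  obtain ⟨b, rfl⟩ := hr s hs'
  have hu : F ((a * b)⁻¹ * y) = 1 := by rw [map_mul, map_inv, hy, map_mul, inv_mul_cancel]
  have e : y = a * b * ((a * b)⁻¹ * y) := by group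
  rw [e]
  exact ((Commute.mul_right (comm3 ht t2 hk h1 r3) (comm3 ht t2 hk h2 s3)).mul_right (kc ht hk hu x)).eq

include t2 hr in
theorem nc (t1 : t ≠ 1) (hF : ∀ x, F x ∈ alternatingGroup (Fin 11)) {e : C} (he : e * e = t) (hFt : F t = 1) {x y : C}
    (hx : F x = ec) (hy : F y = eb) : x * y ≠ y * x := by
  have ma : ea ∈ alternatingGroup (Fin 11) := Py_le ea_Py
  have ma' : ea' ∈ alternatingGroup (Fin 11) := by simp [ea']
  obtain ⟨a, ha⟩ := hr _ ma
  obtain ⟨a', ha'⟩ := hr _ ma'
  have q : ∀ z : C, F z ≠ 1 → F z * F z = 1 → (F z).support.card = 4 → a * a = z * z := fun z h1 h2 h3 => by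
    obtain ⟨k, hk1, hk2⟩ := conj_inv ma (hF z) (by decide +kernel) (by decide +kernel) h1 h2 (h3 ▸ by decide +kernel)
      (by decide +kernel)
    exact sq_conj ht t2 hk hr hk1 (ha ▸ hk2) (by rw [ha]; decide +kernel)
  have c1 : a' * a = a * a' := comm33 ht t2 hk hr (r := swap 0 1 * swap 1 2) (s := swap 1 2 * swap 2 3) (by simp) (by simp)
    (by rw [ha']; decide +kernel) (by rw [ha']; decide +kernel) (by decide +kernel) (by decide +kernel)
    (by rw [ha]; decide +kernel)
  have c2 : a' * y = y * a' := comm33 ht t2 hk hr (r := swap 0 2 * swap 2 1) (s := swap 2 1 * swap 1 3) (by simp) (by simp)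
    (by rw [ha']; decide +kernel) (by rw [ha']; decide +kernel) (by decide +kernel) (by decide +kernel)
    (by rw [hy]; decide +kernel)
  have aa : F (a * a) = 1 := by rw [map_mul, ha]; decide +kernel
  have hc : a * a' * (a * a') = 1 := by
    calc a * a' * (a * a') = a * (a' * a) * a' := by group
      _ = a * a * (a' * a') := by rw [c1]; group
      _ = 1 := by
        rw [← q a' (by rw [ha']; decide +kernel) (by rw [ha']; decide +kernel) (by rw [ha']; decide +kernel)]
        exact k2 ht t2 hk aa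
  have hc' : F (a * a') = ec := by rw [map_mul, ha, ha', ec]
  have e1 : F e ≠ 1 := fun h => t1 (he ▸ k2 ht t2 hk h)
  have e2 : F e * F e = 1 := by rw [← map_mul, he, hFt]
  have qa : a * a = t := by
    rcases supp_inv (hF e) e1 e2 with h | h
    · exact (q e e1 e2 h).trans he
    · obtain ⟨k, hk1, hk2⟩ := conj_inv (hF e) (Py_le ec_Py) e1 e2 ec_ne (by decide +kernel) (h ▸ by decide +kernel)
        (by omega)
      exact absurd (he.symm.trans ((sq_conj ht t2 hk hr hk1 (hc' ▸ hk2) e2).trans hc)) t1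
  intro h
  have hu : F ((a * a')⁻¹ * x) = 1 := by rw [map_mul, map_inv, hc', hx, inv_mul_cancel]
  have ex : x = a * a' * ((a * a')⁻¹ * x) := by group
  generalize (a * a')⁻¹ * x = u at hu ex
  have c3 : a * y = y * a := by
    have : Commute a y := by
      have h1 : a = x * (a' * u)⁻¹ := by rw [ex]; group
      rw [h1]
      exact Commute.mul_left h (Commute.mul_left c2 (kc ht hk hu y).symm).inv_left
    exact this
  have q1 := q y (by rw [hy]; decide +kernel) (by rw [hy]; decide +kernel) (by rw [hy]; decide +kernel)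
  have q2 := q (a * y) (by rw [map_mul, ha, hy]; decide +kernel) (by rw [map_mul, ha, hy]; decide +kernel)
    (by rw [map_mul, ha, hy]; decide +kernel)
  refine t1 ?_
  calc t = a * y * (a * y) := qa.symm.trans q2
    _ = a * (y * a) * y := by group
    _ = a * a * (y * y) := by rw [← c3]; group
    _ = 1 := by rw [← q1, qa, t2]

end cover

theorem main {Γ : Type*} [Group Γ] [Finite Γ] [IsSimpleGroup Γ] {m : ℕ} (hc : Nat.card Γ = 2 ^ 8 * m) (hm : ¬ 2 ∣ m)
    (hm' : m ≠ 155925) {t : Γ} (ho : orderOf t = 2) (hC : Nat.card (Subgroup.centralizer {t}) = 2 * 19958400)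
    (hA : Nat.card (alternatingGroup (Fin 11)) = 19958400)
    (f : Subgroup.centralizer {t} →* alternatingGroup (Fin 11)) (hf : Function.Surjective f)
    (hk : ∀ g, f g = 1 ↔ g.1 ∈ Subgroup.zpowers t) {e : Γ} (he : e * e = t)
    {G : Type*} [Group G] [Finite G] (i : Γ ≃* G) (S : Sylow 2 G) : (groupFusionSystem (S : Subgroup G)).IsSimple 2 := by
  have t1 : t ≠ 1 := fun h => by rw [h, orderOf_one] at ho; exact absurd ho (by decide)
  have t2 : t * t = 1 := by rw [← pow_two, ← ho, pow_orderOf_eq_one]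
  have mc : ∀ {g}, g ∈ Subgroup.centralizer {t} ↔ g * t = t * g := Subgroup.mem_centralizer_singleton_iff
  let τ : Subgroup.centralizer {t} := ⟨t, mc.2 rfl⟩
  let F : Subgroup.centralizer {t} →* Pm := (alternatingGroup (Fin 11)).subtype.comp f
  have hF : ∀ x, F x ∈ alternatingGroup (Fin 11) := fun x => (f x).2
  have hr : ∀ σ ∈ alternatingGroup (Fin 11), ∃ x, F x = σ := fun σ hσ =>
    let ⟨x, hx⟩ := hf ⟨σ, hσ⟩; ⟨x, congrArg Subtype.val hx⟩
  have ht : ∀ x, x * τ = τ * x := fun x => Subtype.ext (mc.1 x.2)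
  have hk' : ∀ x, F x = 1 → x = 1 ∨ x = τ := fun x hx => by
    classical
    have := (hk x).1 (Subtype.ext hx)
    rw [← mem_powers_iff_mem_zpowers, mem_powers_iff_mem_range_orderOf, ho] at this
    simp only [Finset.mem_image, Finset.mem_range] at this
    obtain ⟨k, hk, h⟩ := this
    interval_cases k
    · exact Or.inl (Subtype.ext (h.symm.trans (pow_zero _)))
    · exact Or.inr (Subtype.ext (h.symm.trans (pow_one _)))
  have hFt : F τ = 1 := congrArg Subtype.val ((hk τ).2 (Subgroup.mem_zpowers t))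
  let X : Subgroup Γ := (Py.comap F).map (Subgroup.centralizer {t}).subtype
  have mX : ∀ x : Subgroup.centralizer {t}, x.1 ∈ X ↔ F x ∈ Py := fun x =>
    Subgroup.mem_map_iff_mem (f := (Subgroup.centralizer {t}).subtype) Subtype.val_injective
  have XC : ∀ x ∈ X, x ∈ Subgroup.centralizer {t} := fun x ⟨y, _, h⟩ => h ▸ y.2
  have tX : t ∈ X := (mX τ).2 (hFt ▸ one_mem _)
  have cX : Nat.card X = 2 ^ 8 := by
    rw [Subgroup.card_map_of_injective Subtype.val_injective]
    have h1 : (Py.comap F).index = (Py.subgroupOf (alternatingGroup (Fin 11))).index :=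
      Subgroup.index_comap_of_surjective (Py.subgroupOf (alternatingGroup (Fin 11))) hf
    have h2 := (Py.subgroupOf (alternatingGroup (Fin 11))).card_mul_index
    have h3 := (Py.comap F).card_mul_index
    rw [Nat.card_congr (Subgroup.subgroupOfEquivOfLe Py_le).toEquiv, card_Py, hA] at h2
    rw [h1, hC, show (Py.subgroupOf (alternatingGroup (Fin 11))).index = 155925 by omega] at h3
    omega
  have zX : ∀ z ∈ X, z ≠ 1 → (∀ g ∈ X, g * z = z * g) → z = t := fun z hz h1 h => by
    have := cen ((mX ⟨z, XC z hz⟩).1 hz) fun g hg => by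
      obtain ⟨y, rfl⟩ := hr g (Py_le hg)
      rw [← map_mul, ← map_mul]
      exact congrArg F (Subtype.ext (h y ((mX y).2 hg)))
    rcases this with h2 | h2
    · exact (hk' _ h2).elim (fun h3 => absurd (congrArg Subtype.val h3) h1) (congrArg Subtype.val)
    · obtain ⟨y, hy⟩ := hr eb (Py_le eb_Py)
      refine absurd (Subtype.ext (h y ((mX y).2 (hy ▸ eb_Py))).symm) (nc ht (Subtype.ext t2) hk' hr
        (fun h => t1 (congrArg Subtype.val h)) hF (e := ⟨e, mc.2 (by rw [← he]; group)⟩) (Subtype.ext he) hFt h2 hy)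
  refine (H14.fus_simple_of (H := ⊤) (X := X) (k := 8) (m := m) le_top cX (Subgroup.card_top.trans hc) hm (by decide) ?_
    (fun T hT z hz h1 h2 h3 => ?_) (Subgroup.topEquiv.trans i) S).1
  · rw [← cX]
    refine Subgroup.card_le_of_le fun g hg => ?_
    have hg' := Subgroup.mem_normalizer_iff.1 hg.2
    have gc : g ∈ Subgroup.centralizer {t} := by
      rw [mc, ← mul_inv_eq_iff_eq_mul]
      refine zX _ ((hg' t).1 tX) (by simpa using t1) fun y hy => ?_
      have := mc.1 (XC _ ((hg' (g⁻¹ * y * g)).2 (by simpa [mul_assoc] using hy)))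
      calc y * (g * t * g⁻¹) = g * (g⁻¹ * y * g * t) * g⁻¹ := by group
        _ = _ := by rw [this]; group
    refine (mX ⟨g, gc⟩).2 (norm (hF _) fun σ => ?_)
    by_cases hσ : σ ∈ alternatingGroup (Fin 11)
    · obtain ⟨y, rfl⟩ := hr σ hσ
      rw [← map_inv, ← map_mul, ← map_mul, ← mX, ← mX]
      exact hg' y
    · refine ⟨fun h => absurd (Py_le h) hσ, fun h => absurd ?_ hσ⟩
      exact (Subgroup.mul_mem_cancel_left _ (hF _)).1 ((Subgroup.mul_mem_cancel_right _ (inv_mem (hF _))).1 (Py_le h))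
  · obtain rfl := zX z hz h1 h2
    obtain ⟨P, hP⟩ := H14.exists_sylow_eq (p := 2) cX hc hm
    obtain ⟨g, hg1, hg2⟩ : ∃ g : Γ, g * z * g⁻¹ ∈ X ∧ g * z * g⁻¹ ≠ z := by
      by_contra hn
      push Not at hn
      obtain ⟨N, hN, h4, h5⟩ := Cfsg.Agent.S0215.result P z ho (by rw [← SetLike.mem_coe, ← Sylow.coe_coe, hP]; exact hz)
        fun g hg => hn g (by rw [← hP]; exact hg)
      rcases hN.eq_bot_or_eq_top with rfl | rfl
      · have : Subgroup.centralizer {z} = ⊤ := eq_top_iff.2 fun g _ => mc.2 (by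
          have := Subgroup.mem_bot.1 (h5 g)
          rw [mul_inv_eq_one, mul_inv_eq_iff_eq_mul] at this
          exact this.symm)
        rw [this, Subgroup.card_top, hc] at hC
        omega
      · rw [Subgroup.card_top, hc, Nat.odd_iff] at h4
        omega
    let U : Subgroup Pm := ((T ⊓ X).comap (Subgroup.centralizer {z}).subtype).map F
    have mU : ∀ x : Subgroup.centralizer {z}, F x ∈ U ↔ x.1 ∈ T ⊓ X := fun x => by
      refine ⟨fun ⟨y, hy, h⟩ => ?_, fun h => ⟨x, h, rfl⟩⟩
      have : (y⁻¹ * x).1 ∈ T ⊓ X := by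
        rcases hk' (y⁻¹ * x) (by rw [map_mul, map_inv, h, inv_mul_cancel]) with h | h <;> rw [h]
        · exact one_mem _
        · exact ⟨h3, hz⟩
      exact (Subgroup.mul_mem_cancel_left _ (inv_mem hy)).1 this
    have UP : U ≤ Py := fun _ ⟨y, hy, h⟩ => h ▸ (mX y).1 hy.2
    have hU : ∀ x ∈ U, ∀ k ∈ alternatingGroup (Fin 11), k * x * k⁻¹ ∈ Py → k * x * k⁻¹ ∈ U := by
      rintro _ ⟨x, hx, rfl⟩ k hk h
      obtain ⟨y, rfl⟩ := hr k hk
      rw [← map_inv, ← map_mul, ← map_mul] at h ⊢
      exact (mU _).2 ⟨hT _ hx.1 y trivial ((mX _).2 h), (mX _).2 h⟩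
    have : Finite Py := Nat.finite_of_card_ne_zero (by rw [card_Py]; decide)
    obtain ⟨c, c1, c2, c3⟩ := H14.exists_central (p := 2) (IsPGroup.of_card (n := 7) card_Py) UP (fun h => by
      have := (mU ⟨_, XC _ hg1⟩).2 ⟨hT z h3 g trivial hg1, hg1⟩
      rw [h, Subgroup.mem_bot] at this
      rcases hk' _ this with h | h
      · exact h1 (by simpa using congrArg Subtype.val h)
      · exact hg2 (congrArg Subtype.val h))
      fun x hx k hk => hU x hx k (Py_le hk) (mul_mem (mul_mem hk (UP hx)) (inv_mem hk))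
    obtain rfl := (cen (UP c1) c3).resolve_left c2
    exact fun x hx => ((mU ⟨x, XC x hx⟩).1 (sc c1 hU ((mX _).1 hx))).1

end L.FL
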